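import Cfsg.Agent.H502.TW.Twist

/-!
# S3694, T12d (helper502): the tensor decomposition

If the span `B` of a subgroup `K` of `GL_n(F)` with scalar commutators and scalar centre is semisimple then `B ≅ M_v(F)` and its
centralizer is `≅ M_w(F)`, `v w = n`.
-/

set_option autoImplicit false

namespace Cfsg.Agent.H502.TW

open Cfsg.Agent.H607.TW Module

/-- Rank factorization of an idempotent. -/
theorem exists_factor {F : Type*} [Field F] {ι : Type*} [Fintype ι] [DecidableEq ι] (e : Matrix ι ι F) (he : e * e = e) :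
    ∃ (w : ℕ) (P : Matrix ι (Fin w) F) (Q : Matrix (Fin w) ι F), Q * P = 1 ∧ P * Q = e := by
  classical
  let f : (ι → F) →ₗ[F] (ι → F) := Matrix.toLin' e
  let W : Submodule F (ι → F) := LinearMap.range f
  let b : Basis (Fin (finrank F W)) F W := Module.finBasis F W
  refine ⟨finrank F W, LinearMap.toMatrix' (W.subtype ∘ₗ (b.equivFun.symm : (Fin (finrank F W) → F) →ₗ[F] W)),
    LinearMap.toMatrix' ((b.equivFun : W →ₗ[F] (Fin (finrank F W) → F)) ∘ₗ f.rangeRestrict), ?_, ?_⟩
  · rw [← LinearMap.toMatrix'_comp, ← LinearMap.toMatrix'_id]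
    congr 1
    apply LinearMap.ext
    intro x
    simp only [LinearMap.comp_apply, LinearMap.id_apply, LinearEquiv.coe_coe]
    have h1 : f.rangeRestrict (W.subtype (b.equivFun.symm x)) = b.equivFun.symm x := by
      apply Subtype.ext
      change f ((b.equivFun.symm x : W) : ι → F) = ((b.equivFun.symm x : W) : ι → F)
      obtain ⟨y, hy⟩ := (b.equivFun.symm x).2
      rw [← hy]
      change f (f y) = f y
      simp only [f, Matrix.toLin'_apply, Matrix.mulVec_mulVec, he]
    rw [h1, LinearEquiv.apply_symm_apply]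
  · rw [← LinearMap.toMatrix'_comp]
    have h1 : (W.subtype ∘ₗ (b.equivFun.symm : (Fin (finrank F W) → F) →ₗ[F] W)) ∘ₗ
        ((b.equivFun : W →ₗ[F] (Fin (finrank F W) → F)) ∘ₗ f.rangeRestrict) = f := by
      apply LinearMap.ext
      intro x
      simp only [LinearMap.comp_apply, LinearEquiv.coe_coe, LinearEquiv.symm_apply_apply]
      rfl
    rw [h1]
    exact LinearMap.toMatrix'_toLin' e

/-- The centralizer of a full matrix subalgebra `φ(M_v(F))` of `M_n(F)` is a full matrix algebra `ψ(M_w(F))`, `v w = n`. -/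
theorem exists_psi {F : Type*} [Field F] {n v : ℕ} (hv : 0 < v)
    (φ : Matrix (Fin v) (Fin v) F →ₐ[F] Matrix (Fin n) (Fin n) F) :
    ∃ (w : ℕ) (ψ : Matrix (Fin w) (Fin w) F →ₙ+* Matrix (Fin n) (Fin n) F), v * w = n ∧ Function.Injective ψ ∧ ψ 1 = 1 ∧
      (∀ x, (∃ m, ψ m = x) ↔ ∀ m, x * φ m = φ m * x) := by
  classical
  let o : Fin v := ⟨0, hv⟩
  let E : Fin v → Fin v → Matrix (Fin n) (Fin n) F := fun i j => φ (Matrix.single i j 1)
  have hE : ∀ i j k l, E i j * E k l = if j = k then E i l else 0 := by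
    intro i j k l
    simp only [E]
    rw [← map_mul]
    split_ifs with h
    · subst h
      rw [Matrix.single_mul_single_same, mul_one]
    · rw [Matrix.single_mul_single_of_ne _ _ _ _ h, map_zero]
  have hsum : ∑ i, E i i = 1 := by
    simp only [E]
    rw [← map_sum, ← map_one φ]
    congr 1
    exact Matrix.sum_single_one
  obtain ⟨w, P, Q, hQP, hPQ⟩ := exists_factor (E o o) (by rw [hE, if_pos rfl])
  have hQe : Q * E o o = Q := by rw [← hPQ, ← Matrix.mul_assoc, hQP, Matrix.one_mul]
  have heP : E o o * P = P := by rw [← hPQ, Matrix.mul_assoc, hQP, Matrix.mul_one]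
  let ψ0 : Matrix (Fin w) (Fin w) F → Matrix (Fin n) (Fin n) F := fun N => ∑ i, E i o * P * N * Q * E o i
  have hcore : ∀ i j (N N' : Matrix (Fin w) (Fin w) F),
      (E i o * P * N * Q * E o i) * (E j o * P * N' * Q * E o j) = if i = j then E i o * P * (N * N') * Q * E o j else 0 := by
    intro i j N N'
    have h1 : (E i o * P * N * Q * E o i) * (E j o * P * N' * Q * E o j) =
        E i o * P * N * Q * (E o i * E j o) * P * N' * Q * E o j := by simp only [Matrix.mul_assoc]
    rw [h1, hE]
    split_ifs with h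
    · have h2 : E i o * P * N * Q * E o o * P * N' * Q * E o j = E i o * P * N * (Q * E o o * P) * N' * Q * E o j := by
        simp only [Matrix.mul_assoc]
      rw [h2, hQe, hQP, Matrix.mul_one]
      simp only [Matrix.mul_assoc]
    · simp
  let ψ : Matrix (Fin w) (Fin w) F →ₙ+* Matrix (Fin n) (Fin n) F :=
    { toFun := ψ0
      map_mul' := by
        intro N N'
        simp only [ψ0]
        rw [Finset.sum_mul]
        refine Finset.sum_congr rfl fun i _ => ?_
        rw [Finset.mul_sum]
        rw [Finset.sum_congr rfl fun j _ => hcore i j N N']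
        rw [Finset.sum_ite_eq]
        simp
      map_zero' := by simp [ψ0]
      map_add' := by
        intro N N'
        simp only [ψ0]
        rw [← Finset.sum_add_distrib]
        refine Finset.sum_congr rfl fun i _ => ?_
        rw [Matrix.mul_add, Matrix.add_mul, Matrix.add_mul] }
  have hψ : ∀ N, ψ N = ∑ i, E i o * P * N * Q * E o i := fun N => rfl
  have hone : ψ 1 = 1 := by
    rw [hψ, ← hsum]
    refine Finset.sum_congr rfl fun i _ => ?_
    have h1 : E i o * P * (1 : Matrix (Fin w) (Fin w) F) * Q * E o i = E i o * (P * Q) * E o i := by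
      rw [Matrix.mul_one]
      simp only [Matrix.mul_assoc]
    rw [h1, hPQ, hE, if_pos rfl, hE, if_pos rfl]
  have hback : ∀ N, Q * ψ N * P = N := by
    intro N
    rw [hψ, Matrix.mul_sum, Matrix.sum_mul, Finset.sum_eq_single o]
    · have h1 : Q * (E o o * P * N * Q * E o o) * P = (Q * E o o * P) * N * (Q * E o o * P) := by
        simp only [Matrix.mul_assoc]
      rw [h1, hQe, hQP, Matrix.one_mul, Matrix.mul_one]
    · intro i _ hi
      have h1 : Q * (E i o * P * N * Q * E o i) * P = (Q * E o o) * (E i o * P * N * Q * E o i) * P := by rw [hQe]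
      have h2 : (Q * E o o) * (E i o * P * N * Q * E o i) * P = Q * (E o o * E i o) * (P * N * Q * E o i) * P := by
        simp only [Matrix.mul_assoc]
      rw [h1, h2, hE, if_neg (Ne.symm hi)]
      simp
    · intro h
      exact absurd (Finset.mem_univ o) h
  -- the range commutes with the matrix units
  have hcomm : ∀ N k l, ψ N * E k l = E k l * ψ N := by
    intro N k l
    rw [hψ, Finset.sum_mul, Finset.mul_sum]
    have h1 : ∀ i, E i o * P * N * Q * E o i * E k l = if i = k then E i o * P * N * Q * E o l else 0 := by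
      intro i
      rw [Matrix.mul_assoc _ (E o i), hE]
      split_ifs <;> simp
    have h2 : ∀ i, E k l * (E i o * P * N * Q * E o i) = if l = i then E k o * P * N * Q * E o i else 0 := by
      intro i
      have h3 : E k l * (E i o * P * N * Q * E o i) = (E k l * E i o) * P * N * Q * E o i := by simp only [Matrix.mul_assoc]
      rw [h3, hE]
      split_ifs <;> simp
    rw [Finset.sum_congr rfl fun i _ => h1 i, Finset.sum_congr rfl fun i _ => h2 i, Finset.sum_ite_eq', Finset.sum_ite_eq]
    simp
  have hφE : ∀ m, φ m = ∑ i, ∑ j, m i j • E i j := by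
    intro m
    conv_lhs => rw [Matrix.matrix_eq_sum_single m]
    simp only [map_sum, E]
    refine Finset.sum_congr rfl fun i _ => Finset.sum_congr rfl fun j _ => ?_
    rw [← map_smul, Matrix.smul_single, smul_eq_mul, mul_one]
  refine ⟨w, ψ, ?_, ?_, hone, ?_⟩
  · -- dimensions
    let P' : Matrix (Fin n) (Fin v × Fin w) F := Matrix.of fun a b => (E b.1 o * P) a b.2
    let Q' : Matrix (Fin v × Fin w) (Fin n) F := Matrix.of fun a b => (Q * E o a.1) a.2 b
    have h1 : P' * Q' = 1 := by
      have h2 : P' * Q' = ∑ i, (E i o * P) * (Q * E o i) := by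
        ext a b
        rw [Matrix.mul_apply, Fintype.sum_prod_type, Matrix.sum_apply]
        refine Finset.sum_congr rfl fun i _ => ?_
        rw [Matrix.mul_apply]
        rfl
      rw [h2, ← hone, hψ]
      refine Finset.sum_congr rfl fun i _ => ?_
      rw [Matrix.mul_one]
      simp only [Matrix.mul_assoc]
    have h3 : Q' * P' = 1 := by
      ext ⟨a, b⟩ ⟨c, d⟩
      have h4 : (Q' * P') (a, b) (c, d) = ((Q * E o a) * (E c o * P)) b d := by
        rw [Matrix.mul_apply, Matrix.mul_apply]
        rfl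
      rw [h4]
      have h5 : (Q * E o a) * (E c o * P) = Q * (E o a * E c o) * P := by simp only [Matrix.mul_assoc]
      rw [h5, hE]
      by_cases hac : a = c
      · subst hac
        rw [if_pos rfl, hQe, hQP]
        by_cases hbd : b = d
        · subst hbd
          rw [Matrix.one_apply_eq, Matrix.one_apply_eq]
        · rw [Matrix.one_apply_ne hbd, Matrix.one_apply_ne (fun h => hbd (congrArg Prod.snd h))]
      · rw [if_neg hac, Matrix.mul_zero, Matrix.zero_mul, Matrix.zero_apply,
          Matrix.one_apply_ne (fun h => hac (congrArg Prod.fst h))]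
    have h6 := (Matrix.toLin'OfInv h1 h3).finrank_eq
    rw [Module.finrank_fintype_fun_eq_card, Module.finrank_fintype_fun_eq_card, Fintype.card_prod, Fintype.card_fin,
      Fintype.card_fin, Fintype.card_fin] at h6
    omega
  · intro N N' h
    rw [← hback N, ← hback N', h]
  · intro x
    constructor
    · rintro ⟨N, rfl⟩ m
      rw [hφE, Finset.mul_sum, Finset.sum_mul]
      refine Finset.sum_congr rfl fun i _ => ?_
      rw [Finset.mul_sum, Finset.sum_mul]
      refine Finset.sum_congr rfl fun j _ => ?_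
      rw [Matrix.mul_smul, Matrix.smul_mul, hcomm]
    · intro hx
      refine ⟨Q * x * P, ?_⟩
      rw [hψ]
      have hxE : ∀ i j, x * E i j = E i j * x := fun i j => hx _
      have h1 : ∀ i, E i o * P * (Q * x * P) * Q * E o i = x * E i i := by
        intro i
        have h2 : E i o * P * (Q * x * P) * Q * E o i = E i o * (P * Q) * x * (P * Q) * E o i := by
          simp only [Matrix.mul_assoc]
        rw [h2, hPQ, hE, if_pos rfl, ← hxE, Matrix.mul_assoc x, hE, if_pos rfl, Matrix.mul_assoc x, hE, if_pos rfl]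
      rw [Finset.sum_congr rfl fun i _ => h1 i, ← Finset.mul_sum, hsum, mul_one]

/-- A finite-dimensional semisimple algebra over a finite field with centre `F` is a matrix algebra over `F`. -/
theorem exists_algEquiv {F : Type} [Field F] [Finite F] {B : Type} [Ring B] [Algebra F B] [Module.Finite F B] [Nontrivial B]
    (hs : IsSemisimpleRing B) (hc : ∀ z : B, (∀ b, z * b = b * z) → ∃ c : F, z = algebraMap F B c) :
    ∃ v : ℕ, 0 < v ∧ Nonempty (B ≃ₐ[F] Matrix (Fin v) (Fin v) F) := by
  classical
  obtain ⟨m, D, d, iD, iA, iF, hd, ⟨e⟩⟩ := IsSemisimpleRing.exists_algEquiv_pi_matrix_divisionRing_finite F B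
  haveI : ∀ i, NeZero (d i) := hd
  -- an index
  have hm : Nonempty (Fin m) := by
    by_contra hcon
    haveI : IsEmpty (Fin m) := not_nonempty_iff.mp hcon
    have h1 : (1 : B) = 0 := by
      apply e.injective
      exact Subsingleton.elim _ _
    exact one_ne_zero h1
  obtain ⟨o⟩ := hm
  -- central elements of the product come from `F`
  have hcen : ∀ z : (Π i, Matrix (Fin (d i)) (Fin (d i)) (D i)), (∀ b, z * b = b * z) →
      ∃ c : F, z = algebraMap F _ c := by
    intro z hz
    obtain ⟨c, hc'⟩ := hc (e.symm z) (by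
      intro b
      apply e.injective
      rw [map_mul, map_mul, AlgEquiv.apply_symm_apply, hz])
    refine ⟨c, ?_⟩
    rw [← AlgEquiv.apply_symm_apply e z, hc', AlgEquiv.commutes]
  -- only one index
  have huniq : ∀ i, i = o := by
    intro i
    by_contra hi
    obtain ⟨c, hc'⟩ := hcen (Pi.single o 1) (by
      intro b
      ext1 j
      rw [Pi.mul_apply, Pi.mul_apply]
      by_cases hj : j = o
      · subst hj
        rw [Pi.single_eq_same, one_mul, mul_one]
      · rw [Pi.single_eq_of_ne hj, zero_mul, mul_zero])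
    have h1 := congrFun hc' i
    have h2 := congrFun hc' o
    rw [Pi.single_eq_of_ne hi, Pi.algebraMap_apply] at h1
    rw [Pi.single_eq_same, Pi.algebraMap_apply] at h2
    haveI : Nonempty (Fin (d i)) := ⟨0⟩
    haveI : Nontrivial (Matrix (Fin (d i)) (Fin (d i)) (D i)) := inferInstance
    haveI : Nonempty (Fin (d o)) := ⟨0⟩
    haveI : Nontrivial (Matrix (Fin (d o)) (Fin (d o)) (D o)) := inferInstance
    have h3 : c = 0 := by
      apply (algebraMap F (Matrix (Fin (d i)) (Fin (d i)) (D i))).injective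
      rw [← h1, map_zero]
    rw [h3, map_zero] at h2
    exact one_ne_zero h2
  -- the division algebra is `F`
  haveI : Finite (D o) := Module.finite_of_finite F
  have hDcomm : ∀ a b : D o, a * b = b * a := fun a b => (littleWedderburn (D o)).mul_comm a b
  have hsurj : Function.Surjective (algebraMap F (D o)) := by
    intro a
    obtain ⟨c, hc'⟩ := hcen (Pi.single o (Matrix.scalar (Fin (d o)) a)) (by
      intro b
      ext1 j
      rw [Pi.mul_apply, Pi.mul_apply]
      obtain rfl := huniq j
      rw [Pi.single_eq_same]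
      exact Matrix.scalar_commute a (fun r => hDcomm a r) (b j))
    refine ⟨c, ?_⟩
    have h1 := congrFun hc' o
    rw [Pi.single_eq_same, Pi.algebraMap_apply] at h1
    have h2 := congrFun (congrFun h1 0) 0
    rw [Matrix.scalar_apply, Matrix.diagonal_apply_eq, Matrix.algebraMap_matrix_apply, if_pos rfl] at h2
    exact h2.symm
  let eD : F ≃ₐ[F] D o := AlgEquiv.ofBijective (Algebra.ofId F (D o)) ⟨(algebraMap F (D o)).injective, hsurj⟩
  let ev : (Π i, Matrix (Fin (d i)) (Fin (d i)) (D i)) ≃ₐ[F] Matrix (Fin (d o)) (Fin (d o)) (D o) :=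
    AlgEquiv.ofBijective (Pi.evalAlgHom F (fun i => Matrix (Fin (d i)) (Fin (d i)) (D i)) o) ⟨by
      intro x y h
      ext1 j
      obtain rfl := huniq j
      exact h, by
      intro y
      exact ⟨Pi.single o y, Pi.single_eq_same _ _⟩⟩
  exact ⟨d o, Nat.pos_of_ne_zero (NeZero.ne _), ⟨(e.trans ev).trans eD.mapMatrix.symm⟩⟩

variable {F : Type} [Field F] {n : ℕ}

local notation "Mat" => Matrix (Fin n) (Fin n) F
local notation "GLn" => Matrix.GeneralLinearGroup (Fin n) F

/-- the elements of the span of `K` commuting with `K` are scalars. -/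
theorem span_center [Fintype F] (hn : 0 < n) {K : Subgroup GLn} (hK : Tw K) {z : Mat}
    (hz : z ∈ Submodule.span F ((fun k : GLn => (k : Mat)) '' (K : Set GLn)))
    (hcomm : ∀ k ∈ K, z * (k : Mat) = (k : Mat) * z) : ∃ c : F, z = c • 1 := by
  classical
  haveI : Finite ↥K := inferInstance
  haveI : Fintype (↥K ⧸ Subgroup.center ↥K) := Fintype.ofFinite _
  rw [← span_eq hn hK] at hz
  obtain ⟨a, ha⟩ := (Submodule.mem_span_range_iff_exists_fun F).mp hz
  have hli := linInd hn hK
  rw [Fintype.linearIndependent_iff] at hli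
  have key : ∀ (k : ↥K) (q : ↥K ⧸ Subgroup.center ↥K), a q * (chi hK (rep q) k - 1) = 0 := by
    intro k
    apply hli
    have h1 := hcomm k k.2
    rw [← ha, Finset.sum_mul, Finset.mul_sum] at h1
    have h2 : (∑ q, (a q * (chi hK (rep q) k - 1)) • ((rep q : GLn) : Mat)) * ((k : GLn) : Mat) = 0 := by
      rw [Finset.sum_mul]
      have h3 : ∀ q : ↥K ⧸ Subgroup.center ↥K, (a q * (chi hK (rep q) k - 1)) • ((rep q : GLn) : Mat) * ((k : GLn) : Mat) =
          ((k : GLn) : Mat) * (a q • ((rep q : GLn) : Mat)) - (a q • ((rep q : GLn) : Mat)) * ((k : GLn) : Mat) := by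
        intro q
        rw [Matrix.mul_smul, chi_spec hK (rep q) k, Matrix.smul_mul, Matrix.smul_mul, smul_smul, ← sub_smul]
        congr 1
        ring
      rw [Finset.sum_congr rfl fun q _ => h3 q, Finset.sum_sub_distrib, h1, sub_self]
    have h5 : ((k : GLn) : Mat) * (((k : GLn)⁻¹ : GLn) : Mat) = 1 := by
      rw [← mul_val, mul_inv_cancel]; rfl
    have h6 := congrArg (fun X : Mat => X * (((k : GLn)⁻¹ : GLn) : Mat)) h2
    simp only [zero_mul] at h6
    rwa [mul_assoc, h5, mul_one] at h6
  have hq : ∀ q : ↥K ⧸ Subgroup.center ↥K, ∃ c : F, a q • ((rep q : GLn) : Mat) = c • 1 := by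
    intro q
    by_cases h0 : a q = 0
    · exact ⟨0, by rw [h0, zero_smul, zero_smul]⟩
    · obtain ⟨c, hc⟩ := hK.nondeg (rep q : GLn) (rep q).2 (by
        intro h hh
        have h1 := (mul_eq_zero.mp (key ⟨h, hh⟩ q)).resolve_left h0
        have h2 := chi_spec hK (rep q) ⟨h, hh⟩
        rw [sub_eq_zero.mp h1, one_smul] at h2
        exact Units.ext h2.symm)
      exact ⟨a q * c, by rw [hc, smul_smul]⟩
  choose c hc using hq
  refine ⟨∑ q, c q, ?_⟩
  rw [← ha, Finset.sum_smul]
  exact Finset.sum_congr rfl fun q _ => hc q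

/-- T12d : if the span `B` of `K` is semisimple then `M_n(F) = M_v(F) ⊗ M_w(F)` with `B = M_v(F) ⊗ 1`. -/
theorem tw_tensor [Fintype F] (hn : 0 < n) {K : Subgroup (Matrix.GeneralLinearGroup (Fin n) F)} (hK : Tw K)
    (B : Subalgebra F (Matrix (Fin n) (Fin n) F))
    (hB : (Subalgebra.toSubmodule B) = Submodule.span F ((fun k : Matrix.GeneralLinearGroup (Fin n) F =>
      (k : Matrix (Fin n) (Fin n) F)) '' (K : Set (Matrix.GeneralLinearGroup (Fin n) F))))
    (hs : IsSemisimpleRing ↥B) :
    ∃ (v w : ℕ) (φ : Matrix (Fin v) (Fin v) F →ₙ+* Matrix (Fin n) (Fin n) F)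
      (ψ : Matrix (Fin w) (Fin w) F →ₙ+* Matrix (Fin n) (Fin n) F),
      v * w = n ∧ v * v = Module.finrank F ↥B ∧ Function.Injective φ ∧ Function.Injective ψ ∧ φ 1 = 1 ∧ ψ 1 = 1 ∧
      (∀ x, (∃ m, φ m = x) ↔ x ∈ B) ∧ (∀ x, (∃ m, ψ m = x) ↔ ∀ y ∈ B, x * y = y * x) := by
  classical
  haveI : Nonempty (Fin n) := ⟨⟨0, hn⟩⟩
  haveI : Nontrivial Mat := inferInstance
  haveI : Nontrivial ↥B := inferInstance
  haveI : Module.Finite F ↥B := inferInstance
  obtain ⟨v, hv, ⟨e⟩⟩ := exists_algEquiv (F := F) hs (by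
    intro z hz
    obtain ⟨c, hc⟩ := span_center hn hK (z := (z : Mat)) (by
      rw [← hB]
      exact z.2) (by
      intro k hk
      have hkB : (k : Mat) ∈ B := by
        rw [← Subalgebra.mem_toSubmodule, hB]
        exact Submodule.subset_span ⟨k, hk, rfl⟩
      exact congrArg Subtype.val (hz ⟨(k : Mat), hkB⟩))
    refine ⟨c, ?_⟩
    apply Subtype.ext
    rw [hc, Algebra.algebraMap_eq_smul_one]
    rfl)
  let φ : Matrix (Fin v) (Fin v) F →ₐ[F] Matrix (Fin n) (Fin n) F := B.val.comp (e.symm : Matrix (Fin v) (Fin v) F →ₐ[F] ↥B)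
  have hφ : ∀ m, φ m = ((e.symm m : ↥B) : Mat) := fun m => rfl
  have hrange : ∀ x, (∃ m, φ m = x) ↔ x ∈ B := by
    intro x
    constructor
    · rintro ⟨m, rfl⟩
      exact (e.symm m).2
    · intro hx
      refine ⟨e ⟨x, hx⟩, ?_⟩
      rw [hφ, AlgEquiv.symm_apply_apply]
  obtain ⟨w, ψ, hvw, hψi, hψ1, hψr⟩ := exists_psi hv φ
  refine ⟨v, w, ((φ : Matrix (Fin v) (Fin v) F →+* Matrix (Fin n) (Fin n) F) :
    Matrix (Fin v) (Fin v) F →ₙ+* Matrix (Fin n) (Fin n) F), ψ, hvw, ?_, ?_, hψi, ?_, hψ1, hrange, ?_⟩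
  · rw [e.toLinearEquiv.finrank_eq, Module.finrank_matrix, Fintype.card_fin, Module.finrank_self, mul_one]
  · intro x y h
    apply e.symm.injective
    exact Subtype.ext h
  · exact map_one φ
  · intro x
    rw [hψr]
    constructor
    · intro h y hy
      obtain ⟨m, rfl⟩ := (hrange y).mpr hy
      exact h m
    · intro h m
      exact h _ ((hrange _).mp ⟨m, rfl⟩)

end Cfsg.Agent.H502.TW
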