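import Cfsg.Agent.H607.TW.Defs2

/-!
# S3694, T12b and T12c (helper502): subgroups of `GL_n(F)` with scalar commutators

`tw_card`: a transversal of the scalars in `K` is a basis of the span of `K`; `tw_diag`: an element acting diagonally on `K` is a
product of an element of `K` and an element centralizing `K`.
-/

set_option autoImplicit false

namespace Cfsg.Agent.H502.TW

open Cfsg.Agent.H607.TW Module

variable {F : Type} [Field F] {n : ℕ}

local notation "Mat" => Matrix (Fin n) (Fin n) F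
local notation "GLn" => Matrix.GeneralLinearGroup (Fin n) F

theorem gl_ne_zero (hn : 0 < n) (g : GLn) : (g : Mat) ≠ 0 := by
  haveI : Nonempty (Fin n) := ⟨⟨0, hn⟩⟩
  haveI : Nontrivial Mat := inferInstance
  exact g.isUnit.ne_zero

theorem smul_inj (hn : 0 < n) (g : GLn) {c d : F} (h : c • (g : Mat) = d • (g : Mat)) : c = d :=
  smul_left_injective F (gl_ne_zero hn g) h

theorem mul_val (g h : GLn) : ((g * h : GLn) : Mat) = (g : Mat) * (h : Mat) := rfl

/-- The scalar `c` with `k x = c x k`. -/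
noncomputable def chi {K : Subgroup GLn} (hK : Tw K) (x k : ↥K) : F := Classical.choose (hK.comm k k.2 x x.2)

theorem chi_spec {K : Subgroup GLn} (hK : Tw K) (x k : ↥K) :
    ((k : GLn) : Mat) * ((x : GLn) : Mat) = chi hK x k • (((x : GLn) : Mat) * ((k : GLn) : Mat)) :=
  Classical.choose_spec (hK.comm k k.2 x x.2)

theorem chi_unique (hn : 0 < n) {K : Subgroup GLn} (hK : Tw K) (x k : ↥K) {c : F}
    (h : ((k : GLn) : Mat) * ((x : GLn) : Mat) = c • (((x : GLn) : Mat) * ((k : GLn) : Mat))) : chi hK x k = c := by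
  have h1 := chi_spec hK x k
  rw [h] at h1
  exact (smul_inj hn ((x : GLn) * (k : GLn)) (by rw [mul_val]; exact h1)).symm

theorem chi_one (hn : 0 < n) {K : Subgroup GLn} (hK : Tw K) (x : ↥K) : chi hK x 1 = 1 := by
  apply chi_unique hn
  simp

theorem chi_mul (hn : 0 < n) {K : Subgroup GLn} (hK : Tw K) (x k l : ↥K) : chi hK x (k * l) = chi hK x k * chi hK x l := by
  apply chi_unique hn
  have h1 := chi_spec hK x k
  have h2 := chi_spec hK x l
  have e : (((k * l : ↥K) : GLn) : Mat) = ((k : GLn) : Mat) * ((l : GLn) : Mat) := rfl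
  rw [e, mul_assoc, h2, Matrix.mul_smul, ← mul_assoc, h1, Matrix.smul_mul, smul_smul, mul_comm (chi hK x l), mul_assoc]

/-- `k ↦ chi x k` as a homomorphism on `K` modulo its centre. -/
noncomputable def chr (hn : 0 < n) {K : Subgroup GLn} (hK : Tw K) (x : ↥K) : (↥K ⧸ Subgroup.center ↥K) →* F :=
  QuotientGroup.lift (Subgroup.center ↥K)
    { toFun := fun k => chi hK x k
      map_one' := chi_one hn hK x
      map_mul' := chi_mul hn hK x }
    (by
      intro k hk
      rw [MonoidHom.mem_ker]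
      change chi hK x k = 1
      apply chi_unique hn
      rw [Subgroup.mem_center_iff] at hk
      have h1 := congrArg (fun z : ↥K => ((z : GLn) : Mat)) (hk x)
      rw [one_smul]
      exact h1.symm)

theorem chr_mk (hn : 0 < n) {K : Subgroup GLn} (hK : Tw K) (x k : ↥K) :
    chr hn hK x (QuotientGroup.mk k) = chi hK x k := rfl

/-- central elements of `K` are scalar. -/
theorem mem_center (hn : 0 < n) {K : Subgroup GLn} (hK : Tw K) (k : ↥K) :
    k ∈ Subgroup.center ↥K ↔ ∃ c : F, ((k : GLn) : Mat) = c • 1 := by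
  constructor
  · intro hk
    rw [Subgroup.mem_center_iff] at hk
    apply hK.nondeg k k.2
    intro h hh
    exact (congrArg (fun z : ↥K => (z : GLn)) (hk ⟨h, hh⟩)).symm
  · rintro ⟨c, hc⟩
    rw [Subgroup.mem_center_iff]
    intro g
    apply Subtype.ext
    apply Units.ext
    change ((g : GLn) : Mat) * ((k : GLn) : Mat) = ((k : GLn) : Mat) * ((g : GLn) : Mat)
    rw [hc]
    simp

theorem chr_inj (hn : 0 < n) {K : Subgroup GLn} (hK : Tw K) (x y : ↥K) (h : chr hn hK x = chr hn hK y) :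
    (QuotientGroup.mk x : ↥K ⧸ Subgroup.center ↥K) = QuotientGroup.mk y := by
  rw [QuotientGroup.eq, Subgroup.mem_center_iff]
  intro k
  have h1 : chi hK x k = chi hK y k := by rw [← chr_mk hn, ← chr_mk hn, h]
  have hx := chi_spec hK x k
  have hy := chi_spec hK y k
  rw [← h1] at hy
  have hc : chi hK x k ≠ 0 := by
    intro h0
    rw [h0, zero_smul] at hx
    exact gl_ne_zero hn ((k : GLn) * (x : GLn)) hx
  apply Subtype.ext
  apply Units.ext
  change ((k : GLn) : Mat) * ((((x : GLn)⁻¹ : GLn) : Mat) * ((y : GLn) : Mat)) =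
    ((((x : GLn)⁻¹ : GLn) : Mat) * ((y : GLn) : Mat)) * ((k : GLn) : Mat)
  have hxi : (((x : GLn)⁻¹ : GLn) : Mat) * ((x : GLn) : Mat) = 1 := by
    rw [← mul_val, inv_mul_cancel]; rfl
  have hxi' : ((x : GLn) : Mat) * (((x : GLn)⁻¹ : GLn) : Mat) = 1 := by
    rw [← mul_val, mul_inv_cancel]; rfl
  -- `x⁻¹ k = c k x⁻¹`
  have h2 : (((x : GLn)⁻¹ : GLn) : Mat) * ((k : GLn) : Mat) =
      chi hK x k • (((k : GLn) : Mat) * (((x : GLn)⁻¹ : GLn) : Mat)) := by
    calc (((x : GLn)⁻¹ : GLn) : Mat) * ((k : GLn) : Mat)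
        = (((x : GLn)⁻¹ : GLn) : Mat) * (((k : GLn) : Mat) * ((x : GLn) : Mat)) * (((x : GLn)⁻¹ : GLn) : Mat) := by
          rw [mul_assoc, mul_assoc, hxi', mul_one]
      _ = chi hK x k • (((k : GLn) : Mat) * (((x : GLn)⁻¹ : GLn) : Mat)) := by
          rw [hx, Matrix.mul_smul, Matrix.smul_mul, ← mul_assoc, hxi, one_mul]
  have h3 : chi hK x k • (((k : GLn) : Mat) * ((((x : GLn)⁻¹ : GLn) : Mat) * ((y : GLn) : Mat))) =
      chi hK x k • (((((x : GLn)⁻¹ : GLn) : Mat) * ((y : GLn) : Mat)) * ((k : GLn) : Mat)) := by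
    calc chi hK x k • (((k : GLn) : Mat) * ((((x : GLn)⁻¹ : GLn) : Mat) * ((y : GLn) : Mat)))
        = (chi hK x k • (((k : GLn) : Mat) * (((x : GLn)⁻¹ : GLn) : Mat))) * ((y : GLn) : Mat) := by
          rw [Matrix.smul_mul, mul_assoc]
      _ = (((x : GLn)⁻¹ : GLn) : Mat) * (((k : GLn) : Mat) * ((y : GLn) : Mat)) := by rw [← h2, mul_assoc]
      _ = _ := by rw [hy, Matrix.mul_smul, mul_assoc]
  exact smul_right_injective _ hc h3

/-- A transversal of the centre. -/
noncomputable def rep {K : Subgroup GLn} (q : ↥K ⧸ Subgroup.center ↥K) : ↥K := Quotient.out q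

theorem mk_rep {K : Subgroup GLn} (q : ↥K ⧸ Subgroup.center ↥K) : (QuotientGroup.mk (rep q) : ↥K ⧸ Subgroup.center ↥K) = q :=
  Quotient.out_eq' q

theorem chr_rep_inj (hn : 0 < n) {K : Subgroup GLn} (hK : Tw K) :
    Function.Injective (fun q : ↥K ⧸ Subgroup.center ↥K => chr hn hK (rep q)) := by
  intro q q' h
  have h1 := chr_inj hn hK _ _ h
  rw [mk_rep, mk_rep] at h1
  exact h1

/-- The transversal is linearly independent. -/
theorem linInd (hn : 0 < n) {K : Subgroup GLn} (hK : Tw K) :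
    LinearIndependent F (fun q : ↥K ⧸ Subgroup.center ↥K => ((rep q : GLn) : Mat)) := by
  have hli := (linearIndependent_monoidHom (↥K ⧸ Subgroup.center ↥K) F).comp
    (fun q : ↥K ⧸ Subgroup.center ↥K => chr hn hK (rep q)) (chr_rep_inj hn hK)
  rw [linearIndependent_iff'] at hli ⊢
  intro s a ha q hq
  obtain ⟨i, j, hij⟩ : ∃ i j, ((rep q : GLn) : Mat) i j ≠ 0 := by
    by_contra hcon
    push Not at hcon
    exact gl_ne_zero hn (rep q : GLn) (by ext i j; exact hcon i j)
  have h1 := hli s (fun q => a q * ((rep q : GLn) : Mat) i j) (by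
    ext z
    induction z using QuotientGroup.induction_on with
    | H k =>
      rw [Finset.sum_apply]
      simp only [Function.comp, Pi.smul_apply, smul_eq_mul, Pi.zero_apply]
      -- conjugate the relation by `k`
      have h2 : ∑ q ∈ s, (a q * chi hK (rep q) k) • ((rep q : GLn) : Mat) = 0 := by
        have h3 : ((k : GLn) : Mat) * (∑ q ∈ s, a q • ((rep q : GLn) : Mat)) = 0 := by rw [ha, mul_zero]
        rw [Finset.mul_sum] at h3
        have h4 : (∑ q ∈ s, (a q * chi hK (rep q) k) • ((rep q : GLn) : Mat)) * ((k : GLn) : Mat) = 0 := by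
          rw [Finset.sum_mul, ← h3]
          refine Finset.sum_congr rfl fun q _ => ?_
          rw [Matrix.mul_smul, chi_spec hK (rep q) k, Matrix.smul_mul, smul_smul]
        have h5 : ((k : GLn) : Mat) * (((k : GLn)⁻¹ : GLn) : Mat) = 1 := by
          rw [← mul_val, mul_inv_cancel]; rfl
        have h6 := congrArg (fun X : Mat => X * (((k : GLn)⁻¹ : GLn) : Mat)) h4
        simp only [zero_mul] at h6
        rwa [mul_assoc, h5, mul_one] at h6
      have h7 := congrFun (congrFun h2 i) j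
      rw [Matrix.sum_apply] at h7
      simp only [Matrix.smul_apply, smul_eq_mul, Matrix.zero_apply] at h7
      rw [← h7]
      refine Finset.sum_congr rfl fun q _ => ?_
      rw [chr_mk]
      ring) q hq
  exact (mul_eq_zero.mp h1).resolve_right hij

theorem span_eq (hn : 0 < n) {K : Subgroup GLn} (hK : Tw K) :
    Submodule.span F (Set.range fun q : ↥K ⧸ Subgroup.center ↥K => ((rep q : GLn) : Mat)) =
      Submodule.span F ((fun k : GLn => (k : Mat)) '' (K : Set GLn)) := by
  apply le_antisymm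
  · rw [Submodule.span_le]
    rintro _ ⟨q, rfl⟩
    exact Submodule.subset_span ⟨_, (rep q).2, rfl⟩
  · rw [Submodule.span_le]
    rintro _ ⟨k, hk, rfl⟩
    have h1 : (QuotientGroup.mk (rep (QuotientGroup.mk ⟨k, hk⟩)) : ↥K ⧸ Subgroup.center ↥K) = QuotientGroup.mk ⟨k, hk⟩ :=
      mk_rep _
    rw [QuotientGroup.eq, mem_center hn hK] at h1
    obtain ⟨c, hc⟩ := h1
    have h2 : (k : Mat) = c • ((rep (QuotientGroup.mk ⟨k, hk⟩ : ↥K ⧸ Subgroup.center ↥K) : GLn) : Mat) := by
      have h3 : (rep (QuotientGroup.mk ⟨k, hk⟩ : ↥K ⧸ Subgroup.center ↥K) : GLn) *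
          (((rep (QuotientGroup.mk ⟨k, hk⟩ : ↥K ⧸ Subgroup.center ↥K))⁻¹ * ⟨k, hk⟩ : ↥K) : GLn) = k := by
        change _ * (_⁻¹ * _) = _
        rw [mul_inv_cancel_left]
      have h4 := congrArg (fun g : GLn => (g : Mat)) h3
      simp only [mul_val] at h4
      rw [hc] at h4
      rw [← h4]
      simp
    simp only [SetLike.mem_coe]
    rw [h2]
    exact Submodule.smul_mem _ _ (Submodule.subset_span ⟨_, rfl⟩)

/-- T12b : `K` modulo scalars is a basis of the span of `K`. -/
theorem tw_card [Fintype F] (hn : 0 < n) {K : Subgroup (Matrix.GeneralLinearGroup (Fin n) F)} (hK : Tw K) (Z : Subgroup ↥K)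
    (hZ : ∀ k : ↥K, k ∈ Z ↔ ∃ c : F, ((k : Matrix.GeneralLinearGroup (Fin n) F) : Matrix (Fin n) (Fin n) F) = c • 1) :
    Z.index = Module.finrank F ↥(Submodule.span F ((fun k : Matrix.GeneralLinearGroup (Fin n) F =>
      (k : Matrix (Fin n) (Fin n) F)) '' (K : Set (Matrix.GeneralLinearGroup (Fin n) F)))) := by
  classical
  have hZc : Z = Subgroup.center ↥K := by
    ext k
    rw [hZ, mem_center hn hK]
  subst hZc
  haveI : Finite ↥K := inferInstance
  haveI : Fintype (↥K ⧸ Subgroup.center ↥K) := Fintype.ofFinite _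
  rw [← span_eq hn hK, finrank_span_eq_card (linInd hn hK), Subgroup.index, Nat.card_eq_fintype_card]

/-- T12c : an element acting on `K` diagonally is a product of an element of `K` and one of the centralizer. -/
theorem tw_diag [Fintype F] {K : Subgroup (Matrix.GeneralLinearGroup (Fin n) F)} (hK : Tw K)
    (g : Matrix.GeneralLinearGroup (Fin n) F)
    (hg : ∀ k ∈ K, ∃ c : F, (g : Matrix (Fin n) (Fin n) F) * (k : Matrix (Fin n) (Fin n) F) =
      c • ((k : Matrix (Fin n) (Fin n) F) * (g : Matrix (Fin n) (Fin n) F))) :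
    ∃ k₀ ∈ K, ∀ k ∈ K, (k₀⁻¹ * g) * k = k * (k₀⁻¹ * g) := by
  classical
  rcases Nat.eq_zero_or_pos n with h0 | hn
  · subst h0
    exact ⟨1, K.one_mem, fun k _ => Units.ext (Subsingleton.elim _ _)⟩
  haveI : Finite ↥K := inferInstance
  haveI : Fintype (↥K ⧸ Subgroup.center ↥K) := Fintype.ofFinite _
  -- the inverse scalars
  have hg' : ∀ k : ↥K, ∃ c : F, ((k : GLn) : Mat) * (g : Mat) = c • ((g : Mat) * ((k : GLn) : Mat)) := by
    intro k
    obtain ⟨c, hc⟩ := hg k k.2
    have hc0 : c ≠ 0 := by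
      rintro rfl
      rw [zero_smul] at hc
      exact gl_ne_zero hn (g * (k : GLn)) hc
    refine ⟨c⁻¹, ?_⟩
    rw [hc, smul_smul, inv_mul_cancel₀ hc0, one_smul]
  choose l hl using hg'
  have huniq : ∀ (k : ↥K) (c : F), ((k : GLn) : Mat) * (g : Mat) = c • ((g : Mat) * ((k : GLn) : Mat)) → l k = c := by
    intro k c h
    have h1 := hl k
    rw [h] at h1
    exact (smul_inj hn (g * (k : GLn)) (by rw [mul_val]; exact h1)).symm
  let L : (↥K ⧸ Subgroup.center ↥K) →* F := QuotientGroup.lift (Subgroup.center ↥K)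
    { toFun := l
      map_one' := huniq 1 1 (by simp)
      map_mul' := fun k k' => huniq _ _ (by
        have e : (((k * k' : ↥K) : GLn) : Mat) = ((k : GLn) : Mat) * ((k' : GLn) : Mat) := rfl
        rw [e, mul_assoc, hl k', Matrix.mul_smul, ← mul_assoc, hl k, Matrix.smul_mul, smul_smul, mul_comm (l k'), mul_assoc]) }
    (by
      intro k hk
      rw [MonoidHom.mem_ker]
      change l k = 1
      apply huniq
      rw [mem_center hn hK] at hk
      obtain ⟨c, hc⟩ := hk
      rw [hc]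
      simp)
  have hL : ∀ k : ↥K, L (QuotientGroup.mk k) = l k := fun k => rfl
  -- `L` is one of the characters `chr x`
  obtain ⟨q, hq⟩ : ∃ q : ↥K ⧸ Subgroup.center ↥K, chr hn hK (rep q) = L := by
    by_contra hcon
    push Not at hcon
    let f : Option (↥K ⧸ Subgroup.center ↥K) → ((↥K ⧸ Subgroup.center ↥K) →* F) :=
      fun o => o.elim L (fun q => chr hn hK (rep q))
    have hf : Function.Injective f := by
      intro a b hab
      cases a with
      | none =>
        cases b with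
        | none => rfl
        | some b => exact absurd hab.symm (hcon b)
      | some a =>
        cases b with
        | none => exact absurd hab (hcon a)
        | some b => exact congrArg some (chr_rep_inj hn hK hab)
    have hli := (linearIndependent_monoidHom (↥K ⧸ Subgroup.center ↥K) F).comp f hf
    have hcard := hli.fintype_card_le_finrank
    rw [Module.finrank_fintype_fun_eq_card, Fintype.card_option] at hcard
    omega
  refine ⟨(rep q : GLn), (rep q).2, fun k hk => ?_⟩
  have h1 : chi hK (rep q) ⟨k, hk⟩ = l ⟨k, hk⟩ := by rw [← chr_mk hn, hq, hL]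
  have h2 := chi_spec hK (rep q) ⟨k, hk⟩
  have h3 := hl ⟨k, hk⟩
  rw [h1] at h2
  simp only at h2 h3
  have hl0 : l ⟨k, hk⟩ ≠ 0 := by
    intro h0
    rw [h0, zero_smul] at h3
    exact gl_ne_zero hn (k * g) h3
  have hxi : (((rep q : GLn)⁻¹ : GLn) : Mat) * ((rep q : GLn) : Mat) = 1 := by
    rw [← mul_val, inv_mul_cancel]; rfl
  have hxi' : ((rep q : GLn) : Mat) * (((rep q : GLn)⁻¹ : GLn) : Mat) = 1 := by
    rw [← mul_val, mul_inv_cancel]; rfl
  have h4 : (((rep q : GLn)⁻¹ : GLn) : Mat) * (k : Mat) = l ⟨k, hk⟩ • ((k : Mat) * (((rep q : GLn)⁻¹ : GLn) : Mat)) := by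
    calc (((rep q : GLn)⁻¹ : GLn) : Mat) * (k : Mat)
        = (((rep q : GLn)⁻¹ : GLn) : Mat) * ((k : Mat) * ((rep q : GLn) : Mat)) * (((rep q : GLn)⁻¹ : GLn) : Mat) := by
          rw [mul_assoc, mul_assoc, hxi', mul_one]
      _ = l ⟨k, hk⟩ • ((k : Mat) * (((rep q : GLn)⁻¹ : GLn) : Mat)) := by
          rw [h2, Matrix.mul_smul, Matrix.smul_mul, ← mul_assoc, hxi, one_mul]
  apply Units.ext
  change ((((rep q : GLn)⁻¹ : GLn) : Mat) * (g : Mat)) * (k : Mat) = (k : Mat) * ((((rep q : GLn)⁻¹ : GLn) : Mat) * (g : Mat))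
  apply smul_right_injective _ hl0
  change l ⟨k, hk⟩ • _ = l ⟨k, hk⟩ • _
  calc l ⟨k, hk⟩ • (((((rep q : GLn)⁻¹ : GLn) : Mat) * (g : Mat)) * (k : Mat))
      = (((rep q : GLn)⁻¹ : GLn) : Mat) * (l ⟨k, hk⟩ • ((g : Mat) * (k : Mat))) := by rw [Matrix.mul_smul, mul_assoc]
    _ = ((((rep q : GLn)⁻¹ : GLn) : Mat) * (k : Mat)) * (g : Mat) := by rw [← h3, mul_assoc]
    _ = _ := by rw [h4, Matrix.smul_mul, mul_assoc]

end Cfsg.Agent.H502.TW
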